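import Groth.Statements.S10255
import Groth.Agent.AlgSp.K44.LocProj

set_option autoImplicit false
universe u
open CategoryTheory CategoryTheory.Limits AlgebraicGeometry Topology TopologicalSpace
open AlgSp

namespace Groth.Agent.S10255

/-- For a representable morphism: let f : X ⟶ Y be a representable morphism of algebraic spaces over a
scheme S and G a quasi-coherent O_Y-module on the small etale site of Y, with u-small modules of
sections over the affine objects of that site, which is locally projective (for every scheme V etale
over Y the restriction of G to the Zariski site of V has projective modules of sections over all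
affine opens). Then the pullback f^*G is locally projective on X: for every scheme U etale over X
the restriction of f^*G to the Zariski site of U has projective modules of sections over all affine
opens. (The published statement is for an arbitrary morphism of algebraic spaces; this row takes f
representable, where f^* is the left adjoint of the direct image V ↦ (V ×_Y X) on modules on the
small etale sites with scheme objects. Modules on these sites take values one universe up, so the
smallness of sections is stated as a hypothesis; without it the local-projectivity hypothesis,
phrased through Zariski companions with u-small sections, can be vacuous.) -/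
theorem result {S : Scheme.{u}} {X Y : AlgSp.Space S} (f : X ⟶ Y)
    (hrep : AlgSp.Representable f.hom)
    [(SheafOfModules.pushforward.{u + 1} (AlgSp.bcRingHom hrep)).IsRightAdjoint]
    (G : AlgSp.ModEt Y.obj) (hG : G.IsQuasicoherent)
    (hsmall : ∀ E : AlgSp.EtOver Y.obj, IsAffine E.obj.left.left → Small.{u} (AlgSp.sectModEt G E))
    (hproj : ∀ {V : Over S} (q : (AlgSp.yon S).obj V ⟶ Y.obj) (hrepq : AlgSp.Representable q)
      [(SheafOfModules.pushforward.{u + 1} (AlgSp.bcRingHom hrepq)).IsRightAdjoint]
      (H : V.left.Modules) [Coh.IsQCoh H]
      (c : AlgSp.ZarCompanion V.left H ((AlgSp.resSchModEt V).obj ((AlgSp.pullModEt hrepq).obj G)))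
      (W : V.left.Opens), AlgSp.RepWith @Etale q → IsAffineOpen W →
        Module.Projective (V.left.ringCatSheaf.obj.obj (Opposite.op W)) (H.val.obj (Opposite.op W)))
    {U : Over S} (p : (AlgSp.yon S).obj U ⟶ X.obj) (hrepp : AlgSp.Representable p)
    (hp : AlgSp.RepWith @Etale p)
    [(SheafOfModules.pushforward.{u + 1} (AlgSp.bcRingHom hrepp)).IsRightAdjoint]
    (H' : U.left.Modules) [Coh.IsQCoh H']
    (c' : AlgSp.ZarCompanion U.left H'
      ((AlgSp.resSchModEt U).obj ((AlgSp.pullModEt hrepp).obj ((AlgSp.pullModEt hrep).obj G))))
    (W : U.left.Opens) (hW : IsAffineOpen W) :
    Module.Projective (U.left.ringCatSheaf.obj.obj (Opposite.op W)) (H'.val.obj (Opposite.op W)) := by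
  have hY := K612.PullQc.hasAtlas_of_isAlgSpace Y.property
  have h1 := K44.ProjPull.locProj_pull hrep hY G
    (K44.Companion.locProj_of_companions hY G hsmall hproj)
  rw [← K44.Companion.projective_iff c' W,
    K44.ProjPull.projective_res_iff hrepp (isEtaleMor_of_repWith p hp)]
  exact h1 _ hW

end Groth.Agent.S10255
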