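import Groth.Statements.S15113
import Groth.Agent.Restated.S15113

set_option autoImplicit false
universe u
open CategoryTheory CategoryTheory.Limits MonoidalCategory CartesianMonoidalCategory MonObj GrpObj AlgebraicGeometry
open Models

namespace Groth.Agent.S15113

/-- Let R be a discrete valuation ring with algebraically closed residue field and fraction field K, C a
smooth proper K-scheme of Krull dimension one (a curve) with H⁰(C, O_C) = K and dim_K H¹(C, O_C) ≥
2, and J the Jacobian of C: a commutative K-group scheme, proper and smooth over K, which through φ
represents the fppf sheafification of T ↦ Pic⁰(C ×_K T) (classes algebraically equivalent to zero on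
geometric fibres), φ turning tensor products of such classes into products of points. Then C has
semi-stable reduction over R — it has a proper model over R which is an at-worst-nodal family — if
and only if J has semi-stable reduction over R — it is the generic fibre, as a K-group scheme, of a
smooth separated group scheme of finite type over R all of whose geometric fibres have unipotent
rank zero. -/
theorem result
    (R : Type u) [CommRing R] [IsDomain R] [IsDiscreteValuationRing R]
    (hk : IsAlgClosed (IsLocalRing.ResidueField R))
    (C : Scheme.{u}) (fC : C ⟶ (Spec (CommRingCat.of (FractionRing R)))) [IsProper fC] [Smooth fC]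
    (hC0 : Models.hRank (FractionRing R) C fC (Coh.structureModule C) 0 = 1)
    (hC1 : topologicalKrullDim C = 1)
    (hg : 2 ≤ Models.curveGenus (FractionRing R) C fC)
    (J : Over (Spec (CommRingCat.of (FractionRing R)))) [GrpObj J] [IsCommMonObj J] [IsProper J.hom] [Smooth J.hom]
    (φ : ∀ T : Over (Spec (CommRingCat.of (FractionRing R))), PicF.Cl (PicF.XT fC T) → (T ⟶ J))
    (hJ : AbDual.IsRelPicZeroK Scheme.fppfPrecoverage fC J φ)
    (hmul : ∀ (T : Over (Spec (CommRingCat.of (FractionRing R)))) (L M : (PicF.XT fC T).Modules), AbDual.IsPicZeroCl fC T (PicF.cl L) →
      AbDual.IsPicZeroCl fC T (PicF.cl M) → φ T (PicF.cl (CohB1.tensorMod L M)) = φ T (PicF.cl L) * φ T (PicF.cl M)) :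
    Models.HasSemistableReduction R C fC ↔ SGA7.HasSemistableReduction R (FractionRing R) J := by
  exact Groth.Agent.Restated.S15113.result R hk C fC hC0 hC1 hg J φ hJ hmul

end Groth.Agent.S15113
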